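import Mathlib
import Cfsg.Prelude.Def_GeometricClasses
import Cfsg.Agent.H889.Transport
import Cfsg.Agent.H889.QForm

/-!
Two-factor tensor vocabulary in standard coordinates: pure tensors `pt x y`, the value of the transported polar
form on pure tensors.
-/

set_option autoImplicit false
set_option linter.unusedSectionVars false

namespace Cfsg.Agent.H889

open Matrix Cfsg.Geo QuadraticMap
open scoped MatrixGroups Kronecker

variable {F : Type*} [Field F]

/-- The pure tensor `x ⊗ y`. -/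
def pt {n₁ n₂ : ℕ} (x : Fin n₁ → F) (y : Fin n₂ → F) : Fin n₁ × Fin n₂ → F := fun a => x a.1 * y a.2

theorem pt_apply {n₁ n₂ : ℕ} (x : Fin n₁ → F) (y : Fin n₂ → F) (a : Fin n₁ × Fin n₂) :
    pt x y a = x a.1 * y a.2 := rfl

theorem pt_add_left {n₁ n₂ : ℕ} (x x' : Fin n₁ → F) (y : Fin n₂ → F) :
    pt (x + x') y = pt x y + pt x' y := by
  funext a; simp [pt, add_mul]

theorem pt_add_right {n₁ n₂ : ℕ} (x : Fin n₁ → F) (y y' : Fin n₂ → F) :
    pt x (y + y') = pt x y + pt x y' := by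
  funext a; simp [pt, mul_add]

theorem pt_smul_left {n₁ n₂ : ℕ} (c : F) (x : Fin n₁ → F) (y : Fin n₂ → F) :
    pt (c • x) y = c • pt x y := by
  funext a; simp [pt, mul_assoc]

theorem pt_smul_right {n₁ n₂ : ℕ} (c : F) (x : Fin n₁ → F) (y : Fin n₂ → F) :
    pt x (c • y) = c • pt x y := by
  funext a; simp [pt, mul_left_comm]

theorem kronecker_mulVec_pt {n₁ n₂ : ℕ} (A : Matrix (Fin n₁) (Fin n₁) F) (B : Matrix (Fin n₂) (Fin n₂) F)
    (x : Fin n₁ → F) (y : Fin n₂ → F) : (A ⊗ₖ B) *ᵥ pt x y = pt (A *ᵥ x) (B *ᵥ y) := by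
  funext a
  simp only [pt, Matrix.mulVec, dotProduct, Matrix.kroneckerMap_apply]
  rw [Fintype.sum_prod_type, Finset.sum_mul_sum]
  refine Finset.sum_congr rfl fun i _ => Finset.sum_congr rfl fun j _ => ?_
  ring

/-- A vector as a sum of pure tensors with first factor a standard basis vector. -/
theorem eq_sum_pt {n₁ n₂ : ℕ} (z : Fin n₁ × Fin n₂ → F) :
    z = ∑ i, pt (Pi.single i (1 : F)) (fun j => z (i, j)) := by
  funext a
  rw [Finset.sum_apply]
  rw [Finset.sum_eq_single a.1]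
  · simp [pt]
  · intro b _ hb
    simp [pt, Ne.symm hb]
  · simp

/-- Two matrices agreeing on the pure tensors are equal. -/
theorem matrix_ext_pt {n₁ n₂ : ℕ} (A B : Matrix (Fin n₁ × Fin n₂) (Fin n₁ × Fin n₂) F)
    (h : ∀ (x : Fin n₁ → F) (y : Fin n₂ → F), A *ᵥ pt x y = B *ᵥ pt x y) : A = B := by
  apply Matrix.mulVec_injective
  funext z
  rw [eq_sum_pt z, Matrix.mulVec_sum, Matrix.mulVec_sum]
  exact Finset.sum_congr rfl fun i _ => h _ _

/-- A bilinear form is given by its Gram matrix. -/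
theorem form_eq_sum_gram {κ : Type} [Fintype κ] [DecidableEq κ] (f : (κ → F) → (κ → F) → F)
    (hf : IsBilinearForm f) (x y : κ → F) :
    f x y = ∑ a, ∑ b, x a * gramMatrix f a b * y b := by
  have h0l : ∀ v, f 0 v = 0 := fun v => by
    have := hf.smul_left 0 0 v
    simpa using this
  have h0r : ∀ v, f v 0 = 0 := fun v => by
    have := hf.smul_right 0 v 0
    simpa using this
  have hsl : ∀ (s : Finset κ) (w : κ → (κ → F)) (v : κ → F), f (∑ i ∈ s, w i) v = ∑ i ∈ s, f (w i) v := by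
    intro s w v
    induction s using Finset.induction_on with
    | empty => simp [h0l]
    | insert a s ha ih => rw [Finset.sum_insert ha, Finset.sum_insert ha, hf.add_left, ih]
  have hsr : ∀ (s : Finset κ) (w : κ → (κ → F)) (v : κ → F), f v (∑ i ∈ s, w i) = ∑ i ∈ s, f v (w i) := by
    intro s w v
    induction s using Finset.induction_on with
    | empty => simp [h0r]
    | insert a s ha ih => rw [Finset.sum_insert ha, Finset.sum_insert ha, hf.add_right, ih]
  have hx : x = ∑ a, x a • (Pi.single a (1 : F) : κ → F) := by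
    funext i
    simp [Finset.sum_apply, Pi.single_apply]
  have hy : y = ∑ b, y b • (Pi.single b (1 : F) : κ → F) := by
    funext i
    simp [Finset.sum_apply, Pi.single_apply]
  conv_lhs => rw [hx, hy]
  rw [hsl]
  refine Finset.sum_congr rfl fun a _ => ?_
  rw [hf.smul_left, hsr, Finset.mul_sum]
  refine Finset.sum_congr rfl fun b _ => ?_
  rw [hf.smul_right, gramMatrix]
  ring

/-- The tensor form on pure tensors. -/
theorem formOfGram_pt {n₁ n₂ : ℕ} (f₁ : (Fin n₁ → F) → (Fin n₁ → F) → F)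
    (f₂ : (Fin n₂ → F) → (Fin n₂ → F) → F) (hf₁ : IsBilinearForm f₁) (hf₂ : IsBilinearForm f₂)
    (x₁ y₁ : Fin n₁ → F) (x₂ y₂ : Fin n₂ → F) :
    formOfGram id (gramMatrix f₁ ⊗ₖ gramMatrix f₂) (pt x₁ x₂) (pt y₁ y₂) = f₁ x₁ y₁ * f₂ x₂ y₂ := by
  rw [form_eq_sum_gram f₁ hf₁ x₁ y₁, form_eq_sum_gram f₂ hf₂ x₂ y₂]
  unfold formOfGram
  rw [Fintype.sum_prod_type, Finset.sum_mul_sum]
  refine Finset.sum_congr rfl fun a₁ _ => Finset.sum_congr rfl fun a₂ _ => ?_
  rw [Fintype.sum_prod_type, Finset.sum_mul_sum]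
  refine Finset.sum_congr rfl fun b₁ _ => Finset.sum_congr rfl fun b₂ _ => ?_
  simp only [pt, Matrix.kroneckerMap_apply, id]
  ring

/-- The transported polar form on pure tensors. -/
theorem polar_pullForm_pt {ι : Type} [Fintype ι] [DecidableEq ι] {n₁ n₂ : ℕ}
    (e : ι ≃ Fin n₁ × Fin n₂) (P : GL ι F) (Q : (ι → F) → F)
    (f₁ : (Fin n₁ → F) → (Fin n₁ → F) → F)
    (f₂ : (Fin n₂ → F) → (Fin n₂ → F) → F) (hf₁ : IsBilinearForm f₁) (hf₂ : IsBilinearForm f₂)
    (hT : IsTensorFormStructure id (polar Q) f₁ f₂ e P) :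
    ∃ c : F, c ≠ 0 ∧ ∀ (x₁ y₁ : Fin n₁ → F) (x₂ y₂ : Fin n₂ → F),
      polar (pullForm e P Q) (pt x₁ x₂) (pt y₁ y₂) = c * (f₁ x₁ y₁ * f₂ x₂ y₂) := by
  obtain ⟨c, hc, h⟩ := hT
  refine ⟨c, hc, fun x₁ y₁ x₂ y₂ => ?_⟩
  rw [polar_pullForm, h, formOfGram_pt f₁ f₂ hf₁ hf₂]

/-- In dimension at least 3 there is a non-zero vector killed by two given linear functionals of the form
`f x`, `φ`. -/
theorem exists_ne_zero_two {m : ℕ} (hm : 3 ≤ m) (φ ψ : (Fin m → F) →ₗ[F] F) :
    ∃ z : Fin m → F, z ≠ 0 ∧ φ z = 0 ∧ ψ z = 0 := by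
  have h : LinearMap.ker (φ.prod ψ) ≠ ⊥ := by
    apply LinearMap.ker_ne_bot_of_finrank_lt
    rw [Module.finrank_prod, Module.finrank_self, Module.finrank_fintype_fun_eq_card, Fintype.card_fin]
    omega
  obtain ⟨z, hz, hz0⟩ := (Submodule.ne_bot_iff _).1 h
  refine ⟨z, hz0, ?_⟩
  rw [LinearMap.mem_ker] at hz
  exact ⟨congrArg Prod.fst hz, congrArg Prod.snd hz⟩

/-- The functional `f x` of a bilinear form. -/
def rightFun {κ : Type} (f : (κ → F) → (κ → F) → F) (hf : ∀ v x y, f v (x + y) = f v x + f v y)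
    (hs : ∀ (c : F) (v x : κ → F), f v (c • x) = c * f v x) (v : κ → F) : (κ → F) →ₗ[F] F where
  toFun := f v
  map_add' := hf v
  map_smul' c x := hs c v x

end Cfsg.Agent.H889
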