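import Mathlib
import Cfsg.Prelude.Def_GeometricClasses
import Cfsg.Agent.H889.Transport
import Cfsg.Agent.H889.QForm
import Cfsg.Agent.H889.Tensor2

/-!
Tensor powers in standard coordinates `(Fin t → Fin k) → F`: pure tensors `tp`, tensor products of matrices `pm`,
matrices acting on one slot `slot i A`, the normal form of the elements of `tensorWreathStandard`.
-/

set_option autoImplicit false
set_option linter.unusedSectionVars false

namespace Cfsg.Agent.H889

open Matrix Cfsg.Geo QuadraticMap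
open scoped MatrixGroups

variable {F : Type*} [Field F] {k t : ℕ}

/-- The pure tensor `⊗ xs i`. -/
def tp (xs : Fin t → (Fin k → F)) : (Fin t → Fin k) → F := fun a => ∏ i, xs i (a i)

/-- The tensor product of matrices. -/
def pm (As : Fin t → Matrix (Fin k) (Fin k) F) : Matrix (Fin t → Fin k) (Fin t → Fin k) F :=
  fun a b => ∏ i, As i (a i) (b i)

theorem tp_apply (xs : Fin t → (Fin k → F)) (a : Fin t → Fin k) : tp xs a = ∏ i, xs i (a i) := rfl

theorem pm_apply (As : Fin t → Matrix (Fin k) (Fin k) F) (a b : Fin t → Fin k) :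
    pm As a b = ∏ i, As i (a i) (b i) := rfl

theorem pm_mul (As Bs : Fin t → Matrix (Fin k) (Fin k) F) :
    pm As * pm Bs = pm (fun i => As i * Bs i) := by
  ext a b
  rw [Matrix.mul_apply, pm_apply]
  simp only [Matrix.mul_apply, pm_apply]
  rw [Finset.prod_univ_sum, Fintype.piFinset_univ]
  exact Finset.sum_congr rfl fun c _ => (Finset.prod_mul_distrib).symm

theorem pm_mulVec (As : Fin t → Matrix (Fin k) (Fin k) F) (xs : Fin t → (Fin k → F)) :
    pm As *ᵥ tp xs = tp (fun i => As i *ᵥ xs i) := by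
  funext a
  simp only [Matrix.mulVec, dotProduct, pm_apply, tp_apply]
  rw [Finset.prod_univ_sum, Fintype.piFinset_univ]
  exact Finset.sum_congr rfl fun c _ => (Finset.prod_mul_distrib).symm

theorem pm_one : pm (fun _ : Fin t => (1 : Matrix (Fin k) (Fin k) F)) = 1 := by
  ext a b
  rw [pm_apply]
  by_cases h : a = b
  · subst h
    simp
  · rw [Matrix.one_apply_ne h]
    obtain ⟨i, hi⟩ := Function.ne_iff.1 h
    exact Finset.prod_eq_zero (Finset.mem_univ i) (Matrix.one_apply_ne hi)

/-- The standard basis vectors are pure. -/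
theorem single_eq_tp (a : Fin t → Fin k) :
    (Pi.single a (1 : F) : (Fin t → Fin k) → F) = tp (fun i => Pi.single (a i) 1) := by
  funext b
  rw [tp_apply]
  by_cases h : a = b
  · subst h
    simp
  · rw [Pi.single_eq_of_ne (Ne.symm h)]
    obtain ⟨i, hi⟩ := Function.ne_iff.1 h
    symm
    exact Finset.prod_eq_zero (Finset.mem_univ i) (Pi.single_eq_of_ne (Ne.symm hi) _)

/-- Two matrices agreeing on the pure tensors are equal. -/
theorem matrix_ext_tp {A B : Matrix (Fin t → Fin k) (Fin t → Fin k) F}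
    (h : ∀ xs : Fin t → (Fin k → F), A *ᵥ tp xs = B *ᵥ tp xs) : A = B := by
  ext a b
  have := congrFun (h (fun i => Pi.single (b i) 1)) a
  rw [← single_eq_tp, Matrix.mulVec_single_one, Matrix.mulVec_single_one] at this
  exact this

/-- Updating one factor: additivity. -/
theorem tp_update_add (xs : Fin t → (Fin k → F)) (i : Fin t) (x y : Fin k → F) :
    tp (Function.update xs i (x + y)) = tp (Function.update xs i x) + tp (Function.update xs i y) := by
  funext a
  rw [Pi.add_apply, tp_apply, tp_apply, tp_apply]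
  have h : ∀ z : Fin k → F, ∏ j, Function.update xs i z j (a j) =
      z (a i) * ∏ j ∈ Finset.univ.erase i, xs j (a j) := by
    intro z
    rw [← Finset.mul_prod_erase Finset.univ _ (Finset.mem_univ i), Function.update_self]
    congr 1
    refine Finset.prod_congr rfl fun j hj => ?_
    rw [Function.update_of_ne (Finset.ne_of_mem_erase hj)]
  rw [h, h, h, Pi.add_apply, add_mul]

theorem tp_update_smul (xs : Fin t → (Fin k → F)) (i : Fin t) (c : F) (x : Fin k → F) :
    tp (Function.update xs i (c • x)) = c • tp (Function.update xs i x) := by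
  funext a
  rw [Pi.smul_apply, tp_apply, tp_apply]
  have h : ∀ z : Fin k → F, ∏ j, Function.update xs i z j (a j) =
      z (a i) * ∏ j ∈ Finset.univ.erase i, xs j (a j) := by
    intro z
    rw [← Finset.mul_prod_erase Finset.univ _ (Finset.mem_univ i), Function.update_self]
    congr 1
    refine Finset.prod_congr rfl fun j hj => ?_
    rw [Function.update_of_ne (Finset.ne_of_mem_erase hj)]
  rw [h, h, Pi.smul_apply, smul_eq_mul, smul_eq_mul, mul_assoc]

/-- The matrix `1 ⊗ ⋯ ⊗ A ⊗ ⋯ ⊗ 1` with `A` in position `i`. -/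
def slot (i : Fin t) (A : Matrix (Fin k) (Fin k) F) : Matrix (Fin t → Fin k) (Fin t → Fin k) F :=
  pm (Function.update (fun _ => 1) i A)

theorem slot_mulVec_tp (i : Fin t) (A : Matrix (Fin k) (Fin k) F) (xs : Fin t → (Fin k → F)) :
    slot i A *ᵥ tp xs = tp (Function.update xs i (A *ᵥ xs i)) := by
  rw [slot, pm_mulVec]
  congr 1
  funext j
  by_cases h : j = i
  · subst h; simp
  · rw [Function.update_of_ne h, Function.update_of_ne h, Matrix.one_mulVec]

theorem slot_add (i : Fin t) (A B : Matrix (Fin k) (Fin k) F) :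
    slot i (A + B) = slot i A + slot i B := by
  apply matrix_ext_tp
  intro xs
  rw [Matrix.add_mulVec, slot_mulVec_tp, slot_mulVec_tp, slot_mulVec_tp, Matrix.add_mulVec,
    tp_update_add]

theorem slot_smul (i : Fin t) (c : F) (A : Matrix (Fin k) (Fin k) F) :
    slot i (c • A) = c • slot i A := by
  apply matrix_ext_tp
  intro xs
  rw [Matrix.smul_mulVec, slot_mulVec_tp, slot_mulVec_tp, Matrix.smul_mulVec, tp_update_smul]

theorem slot_one (i : Fin t) : slot i (1 : Matrix (Fin k) (Fin k) F) = 1 := by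
  rw [slot, Function.update_eq_self, pm_one]

theorem slot_smul_one (i : Fin t) (c : F) :
    slot i (c • (1 : Matrix (Fin k) (Fin k) F)) = c • 1 := by
  rw [slot_smul, slot_one]

theorem slot_mul (i : Fin t) (A B : Matrix (Fin k) (Fin k) F) :
    slot i A * slot i B = slot i (A * B) := by
  apply matrix_ext_tp
  intro xs
  rw [← Matrix.mulVec_mulVec, slot_mulVec_tp, slot_mulVec_tp, slot_mulVec_tp,
    Function.update_self, Function.update_idem, Matrix.mulVec_mulVec]

theorem slot_comm {i j : Fin t} (hij : i ≠ j) (A B : Matrix (Fin k) (Fin k) F) :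
    slot i A * slot j B = slot j B * slot i A := by
  apply matrix_ext_tp
  intro xs
  rw [← Matrix.mulVec_mulVec, ← Matrix.mulVec_mulVec, slot_mulVec_tp, slot_mulVec_tp,
    slot_mulVec_tp, slot_mulVec_tp, Function.update_of_ne hij, Function.update_of_ne hij.symm,
    Function.update_comm hij]

/-- The action of `g` on pure tensors is `xs ↦ (gs i) (xs (σ i))`. -/
def IsMonomialOn (g : GL (Fin t → Fin k) F) (gs : Fin t → GL (Fin k) F) (σ : Equiv.Perm (Fin t)) :
    Prop :=
  ∀ xs : Fin t → (Fin k → F), g.val *ᵥ tp xs = tp (fun i => (gs i).val *ᵥ xs (σ i))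

theorem perm_inv_apply_self (σ : Equiv.Perm (Fin t)) (i : Fin t) : σ⁻¹ (σ i) = i :=
  σ.symm_apply_apply i

theorem isMonomialOn_one : IsMonomialOn (1 : GL (Fin t → Fin k) F) (fun _ => 1) 1 := by
  intro xs
  rw [Units.val_one, Matrix.one_mulVec]
  congr 1
  funext i
  rw [Units.val_one, Matrix.one_mulVec, Equiv.Perm.one_apply]

theorem IsMonomialOn.mul {g h : GL (Fin t → Fin k) F} {gs hs : Fin t → GL (Fin k) F}
    {σ τ : Equiv.Perm (Fin t)} (hg : IsMonomialOn g gs σ) (hh : IsMonomialOn h hs τ) :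
    IsMonomialOn (g * h) (fun i => gs i * hs (σ i)) (τ * σ) := by
  intro xs
  rw [Units.val_mul, ← Matrix.mulVec_mulVec, hh, hg]
  congr 1
  funext i
  rw [Units.val_mul, ← Matrix.mulVec_mulVec, Equiv.Perm.mul_apply]

theorem IsMonomialOn.inv {g : GL (Fin t → Fin k) F} {gs : Fin t → GL (Fin k) F}
    {σ : Equiv.Perm (Fin t)} (hg : IsMonomialOn g gs σ) :
    IsMonomialOn g⁻¹ (fun i => (gs (σ⁻¹ i))⁻¹) σ⁻¹ := by
  intro xs
  have h := hg (fun j => ((gs (σ⁻¹ j))⁻¹).val *ᵥ xs (σ⁻¹ j))
  have h2 : (fun i => (gs i).val *ᵥ (((gs (σ⁻¹ (σ i)))⁻¹).val *ᵥ xs (σ⁻¹ (σ i)))) = xs := by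
    funext i
    rw [Matrix.mulVec_mulVec, perm_inv_apply_self, ← Units.val_mul, mul_inv_cancel,
      Units.val_one, Matrix.one_mulVec]
  rw [h2] at h
  rw [← h, Matrix.mulVec_mulVec, ← Units.val_mul, inv_mul_cancel, Units.val_one, Matrix.one_mulVec]

theorem tp_comp_perm (xs : Fin t → (Fin k → F)) (σ : Equiv.Perm (Fin t)) (a : Fin t → Fin k) :
    tp (fun i => xs (σ i)) (a ∘ σ) = tp xs a := by
  rw [tp_apply, tp_apply]
  exact Equiv.prod_comp σ (fun i => xs i (a i))

/-- The elements of the standard tensor-wreath group act on pure tensors as expected. -/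
theorem exists_isMonomialOn {g : GL (Fin t → Fin k) F} (hg : g ∈ tensorWreathStandard k t F) :
    ∃ gs σ, IsMonomialOn g gs σ := by
  unfold tensorWreathStandard at hg
  induction hg using Subgroup.closure_induction with
  | mem g hg =>
    rcases hg with ⟨gs, hgs⟩ | ⟨σ, hσ⟩
    · refine ⟨gs, 1, fun xs => ?_⟩
      have : g.val = pm (fun i => (gs i).val) := by
        ext a b
        exact hgs a b
      rw [this, pm_mulVec]
      rfl
    · refine ⟨fun _ => 1, σ⁻¹, fun xs => ?_⟩
      funext a
      have h1 : (g.val *ᵥ tp xs) a = tp xs (a ∘ σ) := by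
        rw [Matrix.mulVec, dotProduct, Finset.sum_eq_single (a ∘ σ)]
        · rw [hσ, if_pos rfl, one_mul]
        · intro b _ hb
          rw [hσ, if_neg hb, zero_mul]
        · intro h
          exact absurd (Finset.mem_univ _) h
      rw [h1]
      have h2 := tp_comp_perm (fun i => xs (σ⁻¹ i)) σ a
      simp only [perm_inv_apply_self] at h2
      rw [h2]
      congr 1
      funext i
      rw [Units.val_one, Matrix.one_mulVec]
  | one => exact ⟨_, _, isMonomialOn_one⟩
  | mul g h _ _ ihg ihh =>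
    obtain ⟨gs, σ, hg⟩ := ihg
    obtain ⟨hs, τ, hh⟩ := ihh
    exact ⟨_, _, hg.mul hh⟩
  | inv g _ ih =>
    obtain ⟨gs, σ, hg⟩ := ih
    exact ⟨_, _, hg.inv⟩

/-- The tensor product of invertible matrices, invertible. -/
def pmGL (gs : Fin t → GL (Fin k) F) : GL (Fin t → Fin k) F where
  val := pm (fun i => (gs i).val)
  inv := pm (fun i => ((gs i)⁻¹).val)
  val_inv := by
    rw [pm_mul, ← pm_one]
    congr 1
    funext i
    rw [← Units.val_mul, mul_inv_cancel, Units.val_one]
  inv_val := by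
    rw [pm_mul, ← pm_one]
    congr 1
    funext i
    rw [← Units.val_mul, inv_mul_cancel, Units.val_one]

theorem coe_pmGL (gs : Fin t → GL (Fin k) F) : (pmGL gs).val = pm (fun i => (gs i).val) := rfl

theorem pmGL_mem (gs : Fin t → GL (Fin k) F) : pmGL gs ∈ tensorWreathStandard k t F :=
  Subgroup.subset_closure (Or.inl ⟨gs, fun _ _ => rfl⟩)

/-- The tensor power form on pure tensors. -/
theorem tensorPowerForm_tp (f₁ : (Fin k → F) → (Fin k → F) → F) (hf₁ : IsBilinearForm f₁)
    (xs ys : Fin t → (Fin k → F)) :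
    (∑ a, ∑ b, tp xs a * (∏ i, gramMatrix f₁ (a i) (b i)) * id (tp ys b)) =
      ∏ i, f₁ (xs i) (ys i) := by
  have h : ∀ i, f₁ (xs i) (ys i) = ∑ p : Fin k × Fin k, xs i p.1 * gramMatrix f₁ p.1 p.2 * ys i p.2 := by
    intro i
    rw [form_eq_sum_gram f₁ hf₁, Fintype.sum_prod_type]
  rw [Finset.prod_congr rfl fun i _ => h i, Finset.prod_univ_sum, Fintype.piFinset_univ]
  rw [← Fintype.sum_prod_type']
  rw [← Equiv.sum_comp (Equiv.arrowProdEquivProdArrow (Fin t) (fun _ => Fin k) (fun _ => Fin k))]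
  refine Finset.sum_congr rfl fun p _ => ?_
  simp only [tp_apply, id, Equiv.arrowProdEquivProdArrow_apply]
  rw [← Finset.prod_mul_distrib, ← Finset.prod_mul_distrib]

/-- The transported polar form on pure tensors. -/
theorem polar_pullForm_tp {ι : Type} [Fintype ι] [DecidableEq ι]
    (e : ι ≃ (Fin t → Fin k)) (P : GL ι F) (Q : (ι → F) → F)
    (f₁ : (Fin k → F) → (Fin k → F) → F) (hf₁ : IsBilinearForm f₁)
    (hT : IsTensorPowerFormStructure id (polar Q) f₁ e P) :
    ∃ c : F, c ≠ 0 ∧ ∀ xs ys : Fin t → (Fin k → F),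
      polar (pullForm e P Q) (tp xs) (tp ys) = c * ∏ i, f₁ (xs i) (ys i) := by
  obtain ⟨c, hc, h⟩ := hT
  refine ⟨c, hc, fun xs ys => ?_⟩
  rw [polar_pullForm, h, tensorPowerForm_tp f₁ hf₁]

end Cfsg.Agent.H889
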